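import Cfsg.Agent.H385.RC.Lrs

/-!
# S3510, symplectic groups in characteristic two, the bad case of `Sp₆(2)` (helper957)

`kill_fifteen` : no cover `{x, y}`, `x ^ 5 = 1`, `y ^ 3 = 1`, with `|C_V(y)| = 16`, `C_V(y) ∩ C_V(x) = 0`.
-/

set_option autoImplicit false
set_option linter.unusedVariables false
set_option linter.unusedSectionVars false
set_option linter.unusedSimpArgs false

namespace Cfsg.Agent.H957.RC

open Cfsg Cfsg.Agent.H106.RC Cfsg.Agent.H380.RC Cfsg.Agent.H385.RC Module Submodule MulAction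

section

variable {F V G : Type*} [Field F] [AddCommGroup V] [Module F V] [Group G] [DistribMulAction G V]
  {B : LinearMap.BilinForm F V} {N : Subgroup G}

theorem two_cases [Finite F] (hF : Nat.card F = 2) (a : F) : a = 0 ∨ a = 1 := by
  classical
  let _ := Fintype.ofFinite F
  by_contra hcon
  push Not at hcon
  have h1 : ({0, 1, a} : Finset F).card = 3 := by
    rw [Finset.card_insert_of_notMem, Finset.card_pair hcon.2.symm]
    simp [hcon.1.symm]
  have h2 := Finset.card_le_univ ({0, 1, a} : Finset F)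
  rw [← Nat.card_eq_fintype_card, hF, h1] at h2
  omega

/-- over `F₂` everything is linear -/
theorem mem_of_two [Finite F] (hF : Nat.card F = 2) (h : Ev B N) (g : G) : g ∈ N := by
  obtain ⟨σ, h1, -⟩ := h.semi g
  refine (h.mem g).2 fun a v => ?_
  rw [h1]
  rcases two_cases hF a with rfl | rfl
  · rw [map_zero]
  · rw [map_one]

/-- conjugate of a transvection by a linear element -/
theorem conj_tr_lin (h : Ev B N) {g : G} (hg : g ∈ N) (e : V) (c : F) : g * h.tr e c * g⁻¹ = h.tr (g • e) c :=
  h.conj_tr (σ := RingEquiv.refl F) (fun a v => h.lin hg a v) (fun u v => h.isom hg u v) e c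

theorem tr_comm (h : Ev B N) {v z : V} (hvz : B v z = 0) (c d : F) : h.tr v c * h.tr z d = h.tr z d * h.tr v c := by
  have h1 := conj_tr_lin h (h.tr_mem v c) z d
  have h2 : h.tr v c • z = z := by
    rw [h.tr_apply, h.symm z v, hvz, mul_zero, zero_smul, add_zero]
  rw [h2] at h1
  exact mul_inv_eq_iff_eq_mul.1 h1

/-- the element `t_v t_v'` of order three, `B v v' = 1` -/
theorem tt_apply (h : Ev B N) {v v' : V} (hv : B v v' = 1) (u : V) :
    (h.tr v 1 * h.tr v' 1) • u = u + B u v' • v' + (B u v + B u v') • v := by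
  have hv' : B v' v = 1 := by rw [h.symm, hv]
  rw [mul_smul, h.tr_apply v' 1 u, h.tr_apply, one_mul, one_mul, map_add, map_smul, LinearMap.add_apply,
    LinearMap.smul_apply, hv', smul_eq_mul, mul_one]

theorem tt_cube (h : Ev B N) {v v' : V} (hv : B v v' = 1) : (h.tr v 1 * h.tr v' 1) ^ 3 = 1 := by
  have hv' : B v' v = 1 := by rw [h.symm, hv]
  apply h.ext
  intro u
  rw [pow_succ, pow_two, mul_smul, mul_smul, one_smul, tt_apply h hv u, tt_apply h hv, tt_apply h hv]
  simp only [map_add, map_smul, LinearMap.add_apply, LinearMap.smul_apply, h.self, hv, hv', smul_eq_mul, mul_one,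
    mul_zero, add_zero]
  have h2 := h.two
  linear_combination (norm := module) h2 • ((2 * B u v + 4 * B u v') • v' + (4 * B u v + 6 * B u v') • v)

/-- `y1 y2`, two commuting elements of order three -/
theorem tttt_cube (h : Ev B N) {v v' z z' : V} (hv : B v v' = 1) (hz : B z z' = 1) (h1 : B v z = 0) (h2 : B v z' = 0)
    (h3 : B v' z = 0) (h4 : B v' z' = 0) : ((h.tr v 1 * h.tr v' 1) * (h.tr z 1 * h.tr z' 1)) ^ 3 = 1 := by
  have hc : Commute (h.tr v 1 * h.tr v' 1) (h.tr z 1 * h.tr z' 1) := by
    refine Commute.mul_left (Commute.mul_right ?_ ?_) (Commute.mul_right ?_ ?_)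
    · exact tr_comm h h1 1 1
    · exact tr_comm h h2 1 1
    · exact tr_comm h h3 1 1
    · exact tr_comm h h4 1 1
  rw [hc.mul_pow, tt_cube h hv, tt_cube h hz, one_mul]

/-- the fixed space of an element of order three is nondegenerate -/
theorem nd_fix (h : Ev B N) {y : G} (hyN : y ∈ N) (hy : y ^ 3 = 1) {w : V} (hw : y • w = w)
    (hw0 : ∀ u : V, y • u = u → B w u = 0) : w = 0 := by
  apply h.nd
  intro v
  have h3 : y • y • y • v = v := by
    rw [← mul_smul, ← mul_smul, show y * y * y = y ^ 3 by rw [pow_succ, pow_two], hy, one_smul]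
  have h4 := hw0 (v + y • v + y • y • v) (by
    rw [smul_add, smul_add, h3]; abel)
  have h5 : B w (y • v) = B w v := by
    have := h.isom hyN w v
    rwa [hw] at this
  have h6 : B w (y • y • v) = B w v := by
    have := h.isom hyN w (y • v)
    rw [hw, h5] at this
    exact this
  rw [map_add, map_add, h5, h6] at h4
  have h2 := h.two
  linear_combination h4 - B w v * h2

/-- a vector `v` fixed by `y` with `B v (x v) ≠ 0` -/
theorem exists_v (h : Ev B N) {x y : G} (hxN : x ∈ N) (hyN : y ∈ N) (hc : x * y = y * x) (hx : x ^ 5 = 1) (hy : y ^ 3 = 1)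
    (hfix : ∀ v : V, y • v = v → x • v = v → v = 0) (hne : ∃ v : V, y • v = v ∧ v ≠ 0) :
    ∃ v : V, y • v = v ∧ B v (x • v) ≠ 0 := by
  by_contra hcon
  push Not at hcon
  obtain ⟨v, hv, hv0⟩ := hne
  apply hv0
  have hst : ∀ u : V, y • u = u → y • x • u = x • u := by
    intro u hu
    rw [← mul_smul, ← hc, mul_smul, hu]
  have hpol : ∀ u w : V, y • u = u → y • w = w → B u (x • w) = B (x • u) w := by
    intro u w hu hw
    have h1 := hcon (u + w) (by rw [smul_add, hu, hw])
    have h2 := hcon u hu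
    have h3 := hcon w hw
    rw [smul_add, map_add (B (u + w)), map_add B, LinearMap.add_apply, LinearMap.add_apply, h2, h3] at h1
    rw [h.symm (x • u) w]
    have h4 := h.two
    linear_combination h1 - B w (x • u) * h4
  have hxx : x • x • v = v := by
    have h1 := nd_fix h hyN hy (w := x • x • v - v) (by
      rw [smul_sub, hst _ (hst v hv), hv]) (fun u hu => by
      rw [map_sub, LinearMap.sub_apply, h.symm (x • x • v) u, hpol u (x • v) hu (hst v hv), h.isom hxN u v,
        h.symm u v, sub_self])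
    rwa [sub_eq_zero] at h1
  refine hfix v hv ?_
  have h1 : x ^ 5 • v = x • v := by
    rw [show x ^ 5 = x * x * x * x * x by simp only [pow_succ, pow_zero, one_mul], mul_smul, mul_smul, mul_smul, mul_smul, hxx, hxx]
  rw [← h1, hx, one_smul]

end

section

variable {F V G : Type*} [Field F] [Finite F] [AddCommGroup V] [Module F V] [Group G] [DistribMulAction G V]
  {B : LinearMap.BilinForm F V} {N : Subgroup G}

/-- a second hyperbolic pair in the fixed space -/
theorem exists_zz (h : Ev B N) (hF : Nat.card F = 2) {y : G} (hyN : y ∈ N) (hy : y ^ 3 = 1)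
    (hcard : Nat.card {v : V // y • v = v} = 16) {v v' : V} (hv : y • v = v) (hv' : y • v' = v') (hvv : B v v' = 1) :
    ∃ z z' : V, y • z = z ∧ y • z' = z' ∧ B z z' = 1 ∧ B v z = 0 ∧ B v z' = 0 ∧ B v' z = 0 ∧ B v' z' = 0 := by
  have hvv' : B v' v = 1 := by rw [h.symm, hvv]
  have h2 := h.two
  have hpr : ∀ w : V, y • w = w → y • (w + B w v' • v + B w v • v') = w + B w v' • v + B w v • v' := by
    intro w hw
    rw [smul_add, smul_add, h.lin hyN, h.lin hyN, hw, hv, hv']
  have hpv : ∀ w : V, B v (w + B w v' • v + B w v • v') = 0 := by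
    intro w
    rw [map_add, map_add, map_smul, map_smul, h.self, hvv, smul_eq_mul, smul_eq_mul, h.symm w v]
    linear_combination B v w * h2
  have hpv' : ∀ w : V, B v' (w + B w v' • v + B w v • v') = 0 := by
    intro w
    rw [map_add, map_add, map_smul, map_smul, h.self, hvv', smul_eq_mul, smul_eq_mul, h.symm w v']
    linear_combination B v' w * h2
  obtain ⟨w0, hw0, hw1⟩ : ∃ w : V, y • w = w ∧ ∀ a b : F, w ≠ a • v + b • v' := by
    by_contra hcon
    push Not at hcon
    choose f g hfg using fun w : {v : V // y • v = v} => hcon w.1 w.2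
    have hinj : Function.Injective (fun w : {v : V // y • v = v} => (f w, g w)) := by
      intro a b hab
      simp only [Prod.mk.injEq] at hab
      apply Subtype.ext
      rw [hfg a, hfg b, hab.1, hab.2]
    have h1 := Nat.card_le_card_of_injective _ hinj
    rw [hcard, Nat.card_prod, hF] at h1
    omega
  obtain ⟨z, hz⟩ : ∃ z, z = w0 + B w0 v' • v + B w0 v • v' := ⟨_, rfl⟩
  have hyz : y • z = z := by rw [hz]; exact hpr w0 hw0
  have hvz : B v z = 0 := by rw [hz]; exact hpv w0
  have hvz' : B v' z = 0 := by rw [hz]; exact hpv' w0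
  have hz0 : z ≠ 0 := by
    intro h0
    apply hw1 (B w0 v') (B w0 v)
    rw [hz] at h0
    have h3 : w0 + (B w0 v' • v + B w0 v • v') = 0 := by rw [← h0]; abel
    rw [add_eq_zero_iff_eq_neg, h.vneg] at h3
    exact h3
  obtain ⟨u, hu, hzu⟩ : ∃ u : V, y • u = u ∧ B z u ≠ 0 := by
    by_contra hcon
    push Not at hcon
    exact hz0 (nd_fix h hyN hy hyz hcon)
  refine ⟨z, u + B u v' • v + B u v • v', hyz, hpr u hu, ?_, hvz, hpv u, hvz', hpv' u⟩
  rw [map_add, map_add, map_smul, map_smul, h.symm z v, h.symm z v', hvz, hvz', smul_zero, smul_zero, add_zero, add_zero]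
  exact (two_cases hF _).resolve_left hzu

end

section main

variable {F V G Ω : Type*} [Field F] [Finite F] [AddCommGroup V] [Module F V] [FiniteDimensional F V] [Group G]
  [Finite G] [DistribMulAction G V] {B : LinearMap.BilinForm F V} {N : Subgroup G} [MulAction G Ω] [Nonempty Ω]

/-- **The bad case of `Sp₆(2)`.** -/
theorem kill_fifteen (h : Ev B N) (hE : Env G Ω N) (hF : Nat.card F = 2) (hdim : finrank F V = 6) {x y : G}
    (hc : x * y = y * x) (hx : x ^ 5 = 1) (hy : y ^ 3 = 1) (hy1 : y ≠ 1)
    (hfix : ∀ v : V, y • v = v → x • v = v → v = 0) (hcard : Nat.card {v : V // y • v = v} = 16)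
    (hcov : ∀ w : Ω, x • w = w ∨ y • w = w) : False := by
  have hN : ∀ g : G, g ∈ N := mem_of_two hF h
  have hfin : Finite {v : V // y • v = v} := Nat.finite_of_card_ne_zero (by rw [hcard]; norm_num)
  have hne : ∃ v : V, y • v = v ∧ v ≠ 0 := by
    by_contra hcon
    push Not at hcon
    have h1 : Subsingleton {v : V // y • v = v} := ⟨fun a b => Subtype.ext (by rw [hcon a.1 a.2, hcon b.1 b.2])⟩
    have h2 := (Nat.card_of_subsingleton (⟨0, smul_zero _⟩ : {v : V // y • v = v}))
    rw [hcard] at h2
    omega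
  obtain ⟨v, hv, hvx⟩ := exists_v h (hN x) (hN y) hc hx hy hfix hne
  obtain ⟨v', hv'⟩ : ∃ v', v' = x • v := ⟨_, rfl⟩
  have hyv' : y • v' = v' := by rw [hv', ← mul_smul, ← hc, mul_smul, hv]
  have hvv : B v v' = 1 := by rw [hv']; exact (two_cases hF _).resolve_left hvx
  have hvv' : B v' v = 1 := by rw [h.symm, hvv]
  obtain ⟨z, z', hz, hz', hzz, h1, h2, h3, h4⟩ := exists_zz h hF (hN y) hy hcard hv hyv' hvv
  have hzz' : B z' z = 1 := by rw [h.symm, hzz]
  have h1' : B z v = 0 := by rw [h.symm, h1]
  have h2' : B z' v = 0 := by rw [h.symm, h2]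
  have h3' : B z v' = 0 := by rw [h.symm, h3]
  have h4' : B z' v' = 0 := by rw [h.symm, h4]
  have two := h.two
  have hef : B (v + z) (v' + z') = 0 := by
    rw [map_add (B (v + z)), map_add B, LinearMap.add_apply, LinearMap.add_apply, hvv, h3', h2, hzz]
    linear_combination two
  have hli : ∀ a b : F, a • (v + z) + b • (v' + z') = 0 → a = 0 ∧ b = 0 := by
    intro a b hab
    have h5 := congrArg (fun u => B u v') hab
    have h6 := congrArg (fun u => B u v) hab
    simp only [map_add, map_smul, LinearMap.add_apply, LinearMap.smul_apply, hvv, hvv', h.self, h3', h4', h1', h2',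
      smul_eq_mul, mul_one, mul_zero, add_zero, zero_add, LinearMap.zero_apply, map_zero] at h5 h6
    exact ⟨h5, h6⟩
  -- the points not fixed by `y`
  have hbad : ∀ {c : G}, c * y = y * c → ∀ w : Ω, y • w ≠ w → y • c⁻¹ • w ≠ c⁻¹ • w := by
    intro c hcy w hw h5
    apply hw
    have h6 : y • w = c • y • c⁻¹ • w := by rw [← mul_smul, ← mul_smul, hcy, mul_assoc, mul_inv_cancel, mul_one]
    rw [h6, h5, smul_inv_smul]
  have hFBx : ∀ w : Ω, y • w ≠ w → x • w = w := fun w hw => (hcov w).resolve_right hw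
  have hconj : ∀ {g c : G}, c * y = y * c → (∀ w : Ω, y • w ≠ w → g • w = w) →
      ∀ w : Ω, y • w ≠ w → (c * g * c⁻¹) • w = w := by
    intro g c hcy hg w hw
    rw [mul_smul, mul_smul, hg _ (hbad hcy w hw), smul_inv_smul]
  have htr : ∀ {a : V}, y • a = a → h.tr a 1 * y = y * h.tr a 1 := by
    intro a ha
    have h5 := conj_tr_lin h (hN y) a 1
    rw [ha, mul_inv_eq_iff_eq_mul] at h5
    exact h5.symm
  have hFB1 : ∀ w : Ω, y • w ≠ w → (h.tr v 1 * h.tr v' 1) • w = w := by
    intro w hw
    have h5 := hconj (htr hv) hFBx w hw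
    have h6 : h.tr v 1 * x * (h.tr v 1)⁻¹ = (h.tr v 1 * h.tr v' 1) * x := by
      have h7 := conj_tr_lin h (hN x) v 1
      rw [← hv'] at h7
      rw [← h7, h.tr_inv]
      group
    rw [h6, mul_smul, hFBx w hw] at h5
    exact h5
  have hcs : h.sr hef * y = y * h.sr hef := by
    have h5 := h.conj_sr y hef
    have h6 : h.sr (h.form_zero y hef) = h.sr hef := by
      apply h.ext
      intro u
      rw [h.sr_apply, h.sr_apply, smul_add, smul_add, hv, hz, hyv', hz']
    rw [h6, mul_inv_eq_iff_eq_mul] at h5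
    exact h5.symm
  have hsv : h.sr hef • v = z := by
    rw [h.sr_apply, map_add, map_add, h.self, h1, hvv, h2, add_zero, add_zero, zero_smul, one_smul, add_zero]
    linear_combination (norm := module) two • v
  have hsv' : h.sr hef • v' = z' := by
    rw [h.sr_apply, map_add, map_add, h.self, h3, hvv', h4, add_zero, add_zero, zero_smul, one_smul, add_zero]
    linear_combination (norm := module) two • v'
  have hFB2 : ∀ w : Ω, y • w ≠ w → (h.tr z 1 * h.tr z' 1) • w = w := by
    intro w hw
    have h5 := hconj hcs hFB1 w hw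
    have h6 : h.sr hef * (h.tr v 1 * h.tr v' 1) * (h.sr hef)⁻¹ = h.tr z 1 * h.tr z' 1 := by
      have h7 := conj_tr_lin h (h.sr_mem hef) v 1
      have h8 := conj_tr_lin h (h.sr_mem hef) v' 1
      rw [hsv] at h7
      rw [hsv'] at h8
      rw [← h7, ← h8]
      group
    rw [h6] at h5
    exact h5
  obtain ⟨Y, hY⟩ : ∃ Y, Y = (h.tr v 1 * h.tr v' 1) * (h.tr z 1 * h.tr z' 1) := ⟨_, rfl⟩
  have hFBY : ∀ w : Ω, y • w ≠ w → Y • w = w := by
    intro w hw
    rw [hY, mul_smul, hFB2 w hw, hFB1 w hw]
  have hY3 : Y ^ 3 = 1 := by rw [hY]; exact tttt_cube h hvv hzz h1 h2 h3 h4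
  have hYy : Y * y = y * Y := by
    have h5 : Commute ((h.tr v 1 * h.tr v' 1) * (h.tr z 1 * h.tr z' 1)) y := by
      refine Commute.mul_left (Commute.mul_left ?_ ?_) (Commute.mul_left ?_ ?_)
      · exact htr hv
      · exact htr hyv'
      · exact htr hz
      · exact htr hz'
    rw [hY]; exact h5
  have hYe : Y • (v + z) = v' + z' := by
    rw [hY, mul_smul, tt_apply h hzz, tt_apply h hvv]
    simp only [map_add, map_smul, LinearMap.add_apply, LinearMap.smul_apply, h.self, hvv, hvv', hzz, hzz', h1, h2, h3, h4,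
      h1', h2', h3', h4', smul_zero, add_zero, zero_add, zero_smul, one_smul, smul_eq_mul, mul_one, mul_zero]
    linear_combination (norm := module) two • (v + z)
  have hYf : Y • (v' + z') = (v + z) + (v' + z') := by
    rw [hY, mul_smul, tt_apply h hzz, tt_apply h hvv]
    simp only [map_add, map_smul, LinearMap.add_apply, LinearMap.smul_apply, h.self, hvv, hvv', hzz, hzz', h1, h2, h3, h4,
      h1', h2', h3', h4', smul_zero, add_zero, zero_add, zero_smul, one_smul, smul_eq_mul, mul_one, mul_zero]
    module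
  have hYE : ∀ u ∈ span F {v + z, v' + z'}, Y • u ∈ span F ({v + z, v' + z'} : Set V) := by
    intro u hu
    obtain ⟨a, b, rfl⟩ := mem_span_pair.1 hu
    rw [smul_add, h.lin (hN Y), h.lin (hN Y), hYe, hYf]
    have he : v + z ∈ span F ({v + z, v' + z'} : Set V) := Submodule.subset_span (by simp)
    have hf : v' + z' ∈ span F ({v + z, v' + z'} : Set V) := Submodule.subset_span (by simp)
    exact Submodule.add_mem _ (Submodule.smul_mem _ _ hf) (Submodule.smul_mem _ _ (Submodule.add_mem _ he hf))
  have hYq : Y ∉ h.QE (v + z) (v' + z') := by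
    intro h5
    have h6 := h5.2.1
    rw [hYe] at h6
    have h7 := (hli 1 1 (by
      rw [one_smul, one_smul, h6]
      exact h.vadd_self _)).1
    exact one_ne_zero h7
  have hye : y • (v + z) = v + z := by rw [smul_add, hv, hz]
  have hyf : y • (v' + z') = v' + z' := by rw [smul_add, hyv', hz']
  have hyE : ∀ u ∈ span F {v + z, v' + z'}, y • u ∈ span F ({v + z, v' + z'} : Set V) := by
    intro u hu
    rw [h.fix_span (hN y) hye hyf hu]
    exact hu
  have h2p : Fact (Nat.Prime 2) := ⟨Nat.prime_two⟩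
  obtain ⟨n, hn⟩ := IsPGroup.iff_card.1 (h.QE_isPGroup hef)
  have hcop : (3 : ℕ).Coprime (Nat.card (h.QE (v + z) (v' + z'))) := by
    rw [hn]
    exact Nat.Coprime.pow_right _ (by norm_num)
  have hyq : y ∉ h.QE (v + z) (v' + z') := by
    intro h5
    have h6 := h.QE_pow hef h5
    apply hy1
    have h7 : y ^ 4 = y ^ 3 * y := pow_succ y 3
    rw [h6, hy, one_mul] at h7
    exact h7.symm
  refine h.lrs_one hE hef hli hdim.ge hyE hyq fun w => ?_
  by_cases hw : y • w = w
  · exact Or.inr hw
  left
  have h5 := cover_loc (x := fun i : Bool => if i then Y else y) (r := fun _ => 3) (fun _ => Nat.prime_three)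
    (by
      intro i
      cases i
      · exact hy
      · exact hY3)
    (by
      intro i j
      cases i <;> cases j
      · rfl
      · exact hYy.symm
      · exact hYy
      · rfl) (U := h.QE (v + z) (v' + z')) (ω := w)
    (by
      intro u _
      by_cases hw2 : y • u • w = u • w
      · exact ⟨false, hw2⟩
      · exact ⟨true, hFBY _ hw2⟩)
    (by
      intro i u hu
      cases i
      · exact h.QE_norm hyE (hN _) hu
      · exact h.QE_norm hYE (hN _) hu)
    (Or.inr ⟨(h.QE_isPGroup hef).isNilpotent, fun _ => hcop⟩)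
  obtain ⟨i, hi⟩ := h5
  cases i
  · exfalso
    apply hw
    have := hi 1 (Subgroup.one_mem _)
    rw [one_smul] at this
    exact this
  · exact comm_le hi (h.sr_mem_cmm hef hli hdim.ge hYE hYq)

end main

end Cfsg.Agent.H957.RC
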