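import Cfsg.Agent.H385.RC.Iso

/-!
# S3510, symplectic groups in characteristic two: centralisers of self-adjoint elements (box IND; helper957)

* `trForm` : for a field `L ⊇ F` acting on `V` with `B (c u) v = B u (c v)`, the `L`-bilinear form `B_L` with
  `Tr (B_L u v * c) = B (c u) v`;
* `centL_equiv` : `{g ∈ N | g c = c g for all c ∈ L} ≃* Sp B_L`;
* `cent_simpCl` : the centraliser of a self-adjoint element with irreducible minimal polynomial of degree `≥ 2`.
-/

set_option autoImplicit false
set_option linter.unusedSectionVars false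

namespace Cfsg.Agent.H957.RC

open Cfsg Cfsg.Agent.H106.RC Cfsg.Agent.H520.RC Cfsg.Agent.H385.RC Module

section form

variable {F L V : Type*} [Field F] [Field L] [Algebra F L] [FiniteDimensional F L] [Algebra.IsSeparable F L]
  [AddCommGroup V] [Module F V] [Module L V] [IsScalarTower F L V]

theorem tr_ext {b b' : L} (h : ∀ c : L, Algebra.trace F L (b * c) = Algebra.trace F L (b' * c)) : b = b' := by
  have h1 := (LinearMap.BilinForm.toDual (Algebra.traceForm F L) (traceForm_nondegenerate F L)).injective
  apply h1
  apply LinearMap.ext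
  intro c
  rw [LinearMap.BilinForm.toDual_def, LinearMap.BilinForm.toDual_def]
  exact h c

/-- the functional `c ↦ B (c u) v` -/
def fn (B : LinearMap.BilinForm F V) (u v : V) : Module.Dual F L where
  toFun c := B (c • u) v
  map_add' c d := by rw [add_smul, map_add, LinearMap.add_apply]
  map_smul' a c := by rw [smul_assoc, map_smul, LinearMap.smul_apply, RingHom.id_apply]

/-- the value of `B_L` -/
noncomputable def bl (L : Type*) [Field L] [Algebra F L] [FiniteDimensional F L] [Algebra.IsSeparable F L] [Module L V]
    [IsScalarTower F L V] (B : LinearMap.BilinForm F V) (u v : V) : L :=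
  (LinearMap.BilinForm.toDual (Algebra.traceForm F L) (traceForm_nondegenerate F L)).symm (fn B u v)

theorem bl_spec (B : LinearMap.BilinForm F V) (u v : V) (c : L) :
    Algebra.trace F L (bl L B u v * c) = B (c • u) v := by
  have h1 := LinearMap.BilinForm.toDual_def (B := Algebra.traceForm F L) (traceForm_nondegenerate F L) (m := bl L B u v)
    (n := c)
  rw [bl, LinearEquiv.apply_symm_apply] at h1
  exact h1.symm

variable (B : LinearMap.BilinForm F V) (hadj : ∀ (c : L) (u v : V), B (c • u) v = B u (c • v))

/-- the form over `L` -/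
noncomputable def trForm : LinearMap.BilinForm L V :=
  LinearMap.mk₂ L (fun u v => bl L B u v)
    (fun u u' v => tr_ext (F := F) fun c => by
      rw [add_mul, map_add, bl_spec, bl_spec, bl_spec, smul_add, map_add, LinearMap.add_apply])
    (fun k u v => tr_ext (F := F) fun c => by
      rw [bl_spec, smul_eq_mul, mul_comm k, mul_assoc, bl_spec, mul_comm k, mul_smul])
    (fun u v v' => tr_ext (F := F) fun c => by
      rw [add_mul, map_add, bl_spec, bl_spec, bl_spec, map_add])
    (fun k u v => tr_ext (F := F) fun c => by
      rw [bl_spec, smul_eq_mul, mul_comm k, mul_assoc, bl_spec, ← hadj, smul_smul])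

theorem trForm_spec (u v : V) (c : L) : Algebra.trace F L (trForm B hadj u v * c) = B (c • u) v := bl_spec B u v c

theorem trForm_tr (u v : V) : Algebra.trace F L (trForm B hadj u v) = B u v := by
  have := trForm_spec B hadj u v 1
  rwa [mul_one, one_smul] at this

theorem trForm_nalt (hB : NAlt B) (hsq : ∀ c : L, IsSquare c) : NAlt (trForm B hadj) := by
  refine ⟨fun u => ?_, fun u hu => ?_⟩
  · refine tr_ext (F := F) fun c => ?_
    rw [trForm_spec, zero_mul, map_zero]
    obtain ⟨d, rfl⟩ := hsq c
    rw [mul_smul, hadj, hB.alt]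
  · refine hB.nd u fun v => ?_
    rw [← trForm_tr B hadj, hu v, map_zero]

/-- preserving `B_L` is the same as preserving `B` -/
theorem trForm_isom_iff (g : V ≃ₗ[L] V) :
    (∀ u v, trForm B hadj (g u) (g v) = trForm B hadj u v) ↔ ∀ u v, B (g u) (g v) = B u v := by
  constructor
  · intro h u v
    rw [← trForm_tr B hadj, h, trForm_tr]
  · intro h u v
    refine tr_ext (F := F) fun c => ?_
    rw [trForm_spec, trForm_spec, ← map_smul, h]

end form

section grp

variable {F L V G : Type*} [Field F] [Field L] [Algebra F L] [FiniteDimensional F L] [Algebra.IsSeparable F L]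
  [AddCommGroup V] [Module F V] [Module L V] [IsScalarTower F L V] [Group G] [DistribMulAction G V]
  {B : LinearMap.BilinForm F V} {N : Subgroup G}

/-- the elements of `N` commuting with `L` -/
def centL (L : Type*) [Field L] [Module L V] (N : Subgroup G) : Subgroup G where
  carrier := {g | g ∈ N ∧ ∀ (c : L) (v : V), g • c • v = c • g • v}
  one_mem' := ⟨N.one_mem, fun c v => by rw [one_smul, one_smul]⟩
  mul_mem' {g g'} h h' := ⟨N.mul_mem h.1 h'.1, fun c v => by rw [mul_smul, h'.2, h.2, mul_smul]⟩
  inv_mem' {g} h := ⟨N.inv_mem h.1, fun c v => by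
    rw [inv_smul_eq_iff, h.2, smul_inv_smul]⟩

variable (hadj : ∀ (c : L) (u v : V), B (c • u) v = B u (c • v))

/-- restriction of scalars -/
def resL : Sp (trForm B hadj) →* Sp B where
  toFun t := ⟨t.1.restrictScalars F, (trForm_isom_iff B hadj t.1).1 t.2⟩
  map_one' := rfl
  map_mul' _ _ := rfl

theorem resL_injective : Function.Injective (resL (B := B) hadj) := by
  intro s t h
  apply Subtype.ext
  apply LinearEquiv.ext
  intro v
  exact congrArg (fun z : Sp B => z.1 v) h

theorem range_resL (h : Ev B N) : (h.rho.comp (resL hadj)).range = centL (V := V) L N := by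
  apply le_antisymm
  · rintro _ ⟨t, rfl⟩
    refine ⟨h.rho_mem _, fun c v => ?_⟩
    show h.rho (resL hadj t) • c • v = c • h.rho (resL hadj t) • v
    rw [h.rho_apply, h.rho_apply]
    exact t.1.map_smul c v
  · rintro g ⟨hg, hc⟩
    let A : V ≃ₗ[L] V := { DistribMulAction.toAddEquiv V g with map_smul' := fun c v => hc c v }
    have hA : ∀ v, A v = g • v := fun _ => rfl
    have hA2 : ∀ u v, trForm B hadj (A u) (A v) = trForm B hadj u v :=
      (trForm_isom_iff B hadj A).2 fun u v => h.isom hg u v
    refine ⟨⟨A, hA2⟩, h.ext fun v => ?_⟩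
    show h.rho (resL hadj ⟨A, hA2⟩) • v = g • v
    rw [h.rho_apply]
    rfl

/-- the centraliser of `L` is the symplectic group over `L` -/
noncomputable def centL_equiv (h : Ev B N) : Sp (trForm B hadj) ≃* centL (V := V) L N :=
  (MonoidHom.ofInjective (f := h.rho.comp (resL hadj))
    (h.rho_injective.comp (resL_injective hadj))).trans (MulEquiv.subgroupCongr (range_resL hadj h))

end grp

section main

variable {F L V G : Type} [Field F] [Finite F] [Field L] [Algebra F L] [FiniteDimensional F L]
  [AddCommGroup V] [Module F V] [FiniteDimensional F V] [Module L V] [IsScalarTower F L V] [Group G]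
  [DistribMulAction G V] {B : LinearMap.BilinForm F V} {N : Subgroup G}

theorem card_L : Nat.card L = Nat.card F ^ finrank F L := by
  have : Finite L := Module.finite_of_finite F
  have := Fintype.ofFinite F
  have := Fintype.ofFinite L
  rw [Nat.card_eq_fintype_card, Nat.card_eq_fintype_card]
  exact Module.card_eq_pow_finrank

theorem centL_simpCl (h : Ev B N) (hadj : ∀ (c : L) (u v : V), B (c • u) v = B u (c • v)) (hdeg : 2 ≤ finrank F L)
    (hdim : 4 ≤ finrank F V) (h42 : finrank F V = 4 → 2 < Nat.card F) : SimpCl (centL (V := V) L N) := by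
  have : Finite L := Module.finite_of_finite F
  have h2 : (2 : L) = 0 := by
    have := congrArg (algebraMap F L) h.two
    rwa [map_ofNat, map_zero] at this
  have hchar : ringChar L = 2 := by
    have : CharP L 2 := CharTwo.of_one_ne_zero_of_two_eq_zero one_ne_zero h2
    exact ringChar.eq L 2
  have hfd : FiniteDimensional L V := Module.Finite.of_restrictScalars_finite F L V
  have hN : NAlt (trForm B hadj) := trForm_nalt B hadj h.nalt (FiniteField.isSquare_of_char_two hchar)
  refine SimpCl.congr (centL_equiv hadj h) (simpCl_Sp hN h2 ?_)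
  obtain ⟨m, hm⟩ := exists_dim hN
  have hmul : finrank F L * finrank L V = finrank F V := Module.finrank_mul_finrank F L V
  have hF : 2 ≤ Nat.card F := by
    have := Fintype.ofFinite F
    rw [Nat.card_eq_fintype_card]
    exact Fintype.one_lt_card
  have hL := card_L (F := F) (L := L)
  have hL4 : 4 ≤ Nat.card L := by
    rw [hL]
    calc 4 = 2 ^ 2 := by norm_num
      _ ≤ Nat.card F ^ 2 := Nat.pow_le_pow_left hF 2
      _ ≤ Nat.card F ^ finrank F L := Nat.pow_le_pow_right (by omega) hdeg
  have hm0 : m ≠ 0 := by
    rintro rfl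
    rw [hm, mul_zero, mul_zero] at hmul
    omega
  by_cases hm3 : 3 ≤ m
  · left; omega
  · by_cases hm2 : m = 2
    · right; left
      omega
    · right; right
      have hm1 : m = 1 := by omega
      refine ⟨by omega, ?_⟩
      rw [hm, hm1, mul_one] at hmul
      by_cases hd : finrank F L = 2
      · have h3 : 2 < Nat.card F := h42 (by omega)
        rw [hL, hd]
        nlinarith
      · rw [hL]
        calc 4 < 2 ^ 3 := by norm_num
          _ ≤ Nat.card F ^ 3 := Nat.pow_le_pow_left hF 3
          _ ≤ Nat.card F ^ finrank F L := Nat.pow_le_pow_right (by omega) (by omega)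

/-- the centraliser of `a` in `N` -/
def centN {F V G : Type*} [Field F] [AddCommGroup V] [Module F V] [Group G] [DistribMulAction G V]
    (N : Subgroup G) (a : V →ₗ[F] V) : Subgroup G where
  carrier := {g | g ∈ N ∧ ∀ v : V, g • a v = a (g • v)}
  one_mem' := ⟨N.one_mem, fun v => by rw [one_smul, one_smul]⟩
  mul_mem' {g g'} h h' := ⟨N.mul_mem h.1 h'.1, fun v => by rw [mul_smul, h'.2, h.2, mul_smul]⟩
  inv_mem' {g} h := ⟨N.inv_mem h.1, fun v => by
    rw [inv_smul_eq_iff, h.2, smul_inv_smul]⟩

theorem mem_centN {N : Subgroup G} {a : V →ₗ[F] V} {g : G} : g ∈ centN N a ↔ g ∈ N ∧ ∀ v : V, g • a v = a (g • v) :=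
  Iff.rfl

end main

open Polynomial in
/-- **IND** -/
theorem cent_simpCl {F V G : Type} [Field F] [Finite F] [AddCommGroup V] [Module F V] [FiniteDimensional F V]
    [Group G] [DistribMulAction G V] {B : LinearMap.BilinForm F V} {N : Subgroup G} (h : Ev B N)
    (a : V →ₗ[F] V) (hadj : ∀ u v, B (a u) v = B u (a v)) (hirr : Irreducible (minpoly F a))
    (hdeg : 2 ≤ (minpoly F a).natDegree) (hdim : 4 ≤ Module.finrank F V)
    (h42 : Module.finrank F V = 4 → 2 < Nat.card F) : SimpCl (centN N a) := by
  have hfact : Fact (Irreducible (minpoly F a)) := ⟨hirr⟩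
  -- the action of `L = F[X] / (minpoly)`
  let ev : F[X] →+* Module.End F V := ((aeval (R := F) (A := Module.End F V) a : F[X] →ₐ[F] Module.End F V) : F[X] →+* Module.End F V)
  have hev : ∀ p ∈ Ideal.span {minpoly F a}, ev p = 0 := by
    intro p hp
    obtain ⟨q, rfl⟩ := Ideal.mem_span_singleton.1 hp
    rw [map_mul]
    have : ev (minpoly F a) = 0 := minpoly.aeval F a
    rw [this, zero_mul]
  let toEnd : AdjoinRoot (minpoly F a) →+* Module.End F V := Ideal.Quotient.lift _ ev hev
  have hmk : ∀ p : F[X], toEnd (AdjoinRoot.mk _ p) = aeval a p := fun p => Ideal.Quotient.lift_mk _ _ _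
  let _ : Module (AdjoinRoot (minpoly F a)) V := Module.compHom V toEnd
  have hsmul : ∀ (p : F[X]) (v : V), (AdjoinRoot.mk (minpoly F a) p) • v = (aeval a p : Module.End F V) v := by
    intro p v
    show toEnd (AdjoinRoot.mk (minpoly F a) p) v = _
    rw [hmk]
  have hst : IsScalarTower F (AdjoinRoot (minpoly F a)) V := by
    refine ⟨fun x y v => ?_⟩
    obtain ⟨p, rfl⟩ := AdjoinRoot.mk_surjective y
    rw [AdjoinRoot.smul_mk, hsmul, hsmul, map_smul, LinearMap.smul_apply]
  have hfdL : FiniteDimensional F (AdjoinRoot (minpoly F a)) := (AdjoinRoot.powerBasis hirr.ne_zero).finite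
  have hfr : finrank F (AdjoinRoot (minpoly F a)) = (minpoly F a).natDegree := by
    rw [(AdjoinRoot.powerBasis hirr.ne_zero).finrank, AdjoinRoot.powerBasis_dim]
  have hadjL : ∀ (c : AdjoinRoot (minpoly F a)) (u v : V), B (c • u) v = B u (c • v) := by
    intro c u v
    obtain ⟨p, rfl⟩ := AdjoinRoot.mk_surjective c
    rw [hsmul, hsmul]
    induction p using Polynomial.induction_on' generalizing u v with
    | add p q hp hq => rw [map_add, LinearMap.add_apply, LinearMap.add_apply, map_add, LinearMap.add_apply, map_add, hp, hq]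
    | monomial n c =>
      rw [aeval_monomial]
      have h1 : ∀ w : V, (algebraMap F (Module.End F V) c * a ^ n) w = c • (a ^ n) w := fun w => rfl
      rw [h1, h1, map_smul, LinearMap.smul_apply, map_smul]
      congr 1
      clear h1
      induction n generalizing u v with
      | zero => rfl
      | succ n ih =>
        rw [pow_succ, Module.End.mul_apply, ih, hadj, ← Module.End.mul_apply, ← pow_succ', ← pow_succ]
  have hcent : centL (V := V) (AdjoinRoot (minpoly F a)) N = centN N a := by
    ext g
    constructor
    · rintro ⟨hg, hc⟩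
      refine ⟨hg, fun v => ?_⟩
      have := hc (AdjoinRoot.mk _ X) v
      rwa [hsmul, hsmul, aeval_X] at this
    · rintro ⟨hg, hc⟩
      refine ⟨hg, fun c v => ?_⟩
      obtain ⟨p, rfl⟩ := AdjoinRoot.mk_surjective c
      rw [hsmul, hsmul]
      induction p using Polynomial.induction_on' generalizing v with
      | add p q hp hq => rw [map_add, LinearMap.add_apply, LinearMap.add_apply, smul_add, hp, hq]
      | monomial n c =>
        rw [aeval_monomial]
        have h1 : ∀ w : V, (algebraMap F (Module.End F V) c * a ^ n) w = c • (a ^ n) w := fun w => rfl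
        rw [h1, h1, h.lin hg]
        congr 1
        clear h1
        induction n generalizing v with
        | zero => rfl
        | succ n ih => rw [pow_succ, Module.End.mul_apply, Module.End.mul_apply, ih, hc]
  rw [← hcent]
  exact centL_simpCl h hadjL (by rw [hfr]; exact hdeg) hdim h42

end Cfsg.Agent.H957.RC
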